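import Cfsg.Agent.H18.Carter.Basic

/-!
# S3852 [SP-A]: the group theoretic core (helper567)

`σ : Γ →* Q` with cyclic `Q`, `L = ker σ`, `T` a Sylow `2`-subgroup of `L` normalized by `K` with `K L = Γ`, `K ∩ L` a
`2`-group, such that all proper overgroups of `K` are self-normalizing. Then there is no element `b` of `N_L(T)` outside `T`
for which each coset of `L` contains an element which centralizes `T` and `b`.
-/

set_option autoImplicit false

namespace Cfsg.Agent.H567.Ct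

open Subgroup

universe u

theorem core {Γ : Type u} [Group Γ] [Finite Γ] {Q : Type*} [Group Q] [IsCyclic Q] (σ : Γ →* Q) (T K : Subgroup Γ)
    (hTL : T ≤ σ.ker) (hT2 : IsPGroup 2 T) (hodd : ¬ 2 ∣ T.relIndex σ.ker) (hKn : K ≤ normalizer (T : Set Γ))
    (hKL : K ⊔ σ.ker = ⊤) (h2 : IsPGroup 2 (K ⊓ σ.ker : Subgroup Γ))
    (hnorm : ∀ M : Subgroup Γ, K ≤ M → M ≠ ⊤ → normalizer (M : Set Γ) ≤ M) (b : Γ) (hbL : b ∈ σ.ker) (hbT : b ∉ T)
    (hbn : b ∈ normalizer (T : Set Γ))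
    (hφ : ∀ c : Γ, ∃ φ : Γ, σ φ = σ c ∧ (∀ t ∈ T, φ * t = t * φ) ∧ φ * b = b * φ) : False := by
  classical
  -- `K ∩ L ≤ T`
  have hKLT : K ⊓ σ.ker ≤ T := by
    have h3 : IsPGroup 2 ((K ⊓ σ.ker) ⊔ T : Subgroup Γ) :=
      h2.to_sup_of_normal_right' hT2 (inf_le_left.trans hKn)
    have h4 : (K ⊓ σ.ker) ⊔ T ≤ σ.ker := sup_le inf_le_right hTL
    have h5 : T.relIndex ((K ⊓ σ.ker) ⊔ T) ∣ T.relIndex σ.ker := by
      rw [← relIndex_mul_relIndex T _ _ le_sup_right h4]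
      exact dvd_mul_right _ _
    have h6 : T.relIndex ((K ⊓ σ.ker) ⊔ T) = 1 := by
      obtain ⟨k, hk⟩ := IsPGroup.iff_card.1 h3
      have h7 : T.relIndex ((K ⊓ σ.ker) ⊔ T) ∣ Nat.card ((K ⊓ σ.ker) ⊔ T : Subgroup Γ) := relIndex_dvd_card _ _
      rw [hk] at h7
      obtain ⟨j, -, hj⟩ := (Nat.dvd_prime_pow Nat.prime_two).1 h7
      rcases Nat.eq_zero_or_pos j with rfl | hj0
      · rw [hj, pow_zero]
      · exfalso
        apply hodd
        rw [hj] at h5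
        exact (dvd_pow_self 2 hj0.ne').trans h5
    rw [relIndex_eq_one] at h6
    exact le_sup_left.trans h6
  -- the generator
  have hcyc : IsCyclic (K.map σ) := inferInstance
  obtain ⟨⟨_, c, hcK, rfl⟩, hc⟩ := hcyc.exists_generator
  have hKc : ∀ k ∈ K, ∃ j : ℤ, (c ^ j)⁻¹ * k ∈ T := by
    intro k hk
    obtain ⟨j, hj⟩ := hc ⟨σ k, k, hk, rfl⟩
    refine ⟨j, hKLT ⟨K.mul_mem (K.inv_mem (K.zpow_mem hcK j)) hk, ?_⟩⟩
    have h3 : (σ c) ^ j = σ k := congrArg Subtype.val hj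
    show σ ((c ^ j)⁻¹ * k) = 1
    rw [map_mul, map_inv, map_zpow, h3, inv_mul_cancel]
  let M : Subgroup Γ := K ⊔ T
  have hKM : K ≤ M := le_sup_left
  have hTM : T ≤ M := le_sup_right
  have hcT : c ∈ normalizer (T : Set Γ) := hKn hcK
  have hMn : M ≤ normalizer (T : Set Γ) := sup_le hKn le_normalizer
  -- the elements of `M`
  have hMel : ∀ x ∈ M, ∃ j : ℤ, ∃ t ∈ T, x = c ^ j * t := by
    intro x hx
    obtain ⟨k, hk, t, ht, rfl⟩ := Cfsg.Agent.H18.Carter.mul_mem_of_norm' hKn hx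
    obtain ⟨j, hj⟩ := hKc k hk
    exact ⟨j, (c ^ j)⁻¹ * k * t, mul_mem hj ht, by group⟩
  have hML : ∀ x ∈ M, x ∈ σ.ker → x ∈ T := by
    intro x hx hxL
    obtain ⟨k, hk, t, ht, rfl⟩ := Cfsg.Agent.H18.Carter.mul_mem_of_norm' hKn hx
    have h4 : k ∈ σ.ker := by
      have := mul_mem hxL (inv_mem (hTL ht))
      rwa [mul_inv_cancel_right] at this
    exact mul_mem (hKLT ⟨hk, h4⟩) ht
  have hMtop : M ≠ ⊤ := by
    intro h
    exact hbT (hML b (by rw [h]; trivial) hbL)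
  have hMM := hnorm M hKM hMtop
  -- `C_A(c) = 1`
  have hfix : ∀ a : Γ, a ∈ σ.ker → a ∈ normalizer (T : Set Γ) → a * c * a⁻¹ * c⁻¹ ∈ T → a ∈ T := by
    intro a haL haT hac
    apply hML a _ haL
    apply hMM
    -- `a` normalizes `M`
    have h3 : ∀ a : Γ, a ∈ normalizer (T : Set Γ) → a * c * a⁻¹ * c⁻¹ ∈ T → ∀ x ∈ M, a * x * a⁻¹ ∈ M := by
      intro a haT hac x hx
      obtain ⟨j, t, ht, rfl⟩ := hMel x hx
      have h4 : a * c * a⁻¹ ∈ M := by
        have := mul_mem (hTM hac) (hKM hcK)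
        rwa [inv_mul_cancel_right] at this
      have h5 : a * t * a⁻¹ ∈ T := (mem_normalizer_iff.1 haT t).1 ht
      have h6 : a * (c ^ j * t) * a⁻¹ = (a * c * a⁻¹) ^ j * (a * t * a⁻¹) := by
        rw [conj_zpow]
        group
      rw [h6]
      exact mul_mem (zpow_mem h4 j) (hTM h5)
    have h7 : M.map (MulAut.conj a).toMonoidHom = M := by
      refine Subgroup.eq_of_le_of_card_ge ?_ ?_
      · rintro _ ⟨x, hx, rfl⟩
        exact h3 a haT hac x hx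
      · rw [Subgroup.card_map_of_injective (MulAut.conj a).injective]
    rw [mem_normalizer_iff]
    intro x
    constructor
    · intro hx
      rw [← h7]
      exact ⟨x, hx, rfl⟩
    · intro hx
      rw [← h7] at hx
      obtain ⟨y, hy, hxy⟩ := hx
      have h8 : y = x := (MulAut.conj a).injective hxy
      rwa [← h8]
  -- the counting argument in `Y = N(T) / T`
  let Nn : Subgroup Γ := normalizer (T : Set Γ)
  have hn : (T.subgroupOf Nn).Normal := normal_in_normalizer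
  let Y := Nn ⧸ T.subgroupOf Nn
  have hYfin : Finite Y := inferInstance
  let τ : Y →* Q := QuotientGroup.lift (T.subgroupOf Nn) (σ.comp Nn.subtype) (by
    intro x hx
    exact hTL (mem_subgroupOf.1 hx))
  let mk : Nn →* Y := QuotientGroup.mk' _
  have hmk : ∀ x : Nn, mk x = 1 ↔ (x : Γ) ∈ T := by
    intro x
    show (QuotientGroup.mk x : Y) = 1 ↔ _
    rw [QuotientGroup.eq_one_iff, mem_subgroupOf]
  have hτ : ∀ x : Nn, τ (mk x) = σ x := fun x => rfl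
  let c' : Nn := ⟨c, hcT⟩
  let f : τ.ker → {y : Y // τ y = σ c} := fun a => ⟨a.1 * mk c' * a.1⁻¹, by
    have h3 : τ (a.1) = 1 := a.2
    rw [map_mul, map_mul, map_inv, h3, one_mul, inv_one, mul_one, hτ]⟩
  have hfinj : Function.Injective f := by
    rintro ⟨a, ha⟩ ⟨a', ha'⟩ h
    have h3 : a * mk c' * a⁻¹ = a' * mk c' * a'⁻¹ := congrArg Subtype.val h
    have h4 : (a'⁻¹ * a) * mk c' * (a'⁻¹ * a)⁻¹ * (mk c')⁻¹ = 1 := by
      have : (a'⁻¹ * a) * mk c' * (a'⁻¹ * a)⁻¹ * (mk c')⁻¹ = a'⁻¹ * (a * mk c' * a⁻¹) * a' * (mk c')⁻¹ := by group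
      rw [this, h3]
      group
    obtain ⟨z, hz⟩ := QuotientGroup.mk'_surjective (T.subgroupOf Nn) (a'⁻¹ * a)
    have hz' : mk z = a'⁻¹ * a := hz
    rw [← hz'] at h4
    have h5 : mk (z * c' * z⁻¹ * c'⁻¹) = 1 := by
      rw [map_mul, map_mul, map_mul, map_inv, map_inv]
      exact h4
    have h6 : (z : Γ) ∈ T := by
      refine hfix z ?_ z.2 ((hmk _).1 h5)
      show σ z = 1
      rw [← hτ, hz', map_mul, map_inv, show τ a = 1 from ha, show τ a' = 1 from ha', inv_one, one_mul]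
    have h7 : a'⁻¹ * a = 1 := by rw [← hz', (hmk z).2 h6]
    apply Subtype.ext
    exact (inv_mul_eq_one.1 h7).symm
  have hcard : Nat.card {y : Y // τ y = σ c} ≤ Nat.card τ.ker := by
    refine Nat.card_le_card_of_injective (fun y => (⟨y.1 * (mk c')⁻¹, ?_⟩ : τ.ker)) ?_
    · show τ (y.1 * (mk c')⁻¹) = 1
      rw [map_mul, map_inv, y.2, hτ]
      exact mul_inv_cancel _
    · intro y y' h
      have h3 : y.1 * (mk c')⁻¹ = y'.1 * (mk c')⁻¹ := congrArg Subtype.val h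
      exact Subtype.ext (mul_right_cancel h3)
  have hfsurj : Function.Surjective f := by
    have h3 := Function.Injective.bijective_of_nat_card_le hfinj hcard
    exact h3.2
  obtain ⟨φ, hφ1, hφ2, hφ3⟩ := hφ c
  have hφn : φ ∈ Nn := by
    show φ ∈ normalizer (T : Set Γ)
    rw [mem_normalizer_iff]
    intro x
    constructor
    · intro hx
      have h3 : φ * x * φ⁻¹ = x := by rw [hφ2 x hx, mul_inv_cancel_right]
      rwa [h3]
    · intro hx
      have h3 := hφ2 _ hx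
      have h4 : x = φ⁻¹ * (φ * x * φ⁻¹) * φ := by group
      have h5 : φ⁻¹ * (φ * x * φ⁻¹) * φ = φ * x * φ⁻¹ := by
        rw [mul_assoc, ← h3]
        group
      rw [h4, h5]
      exact hx
  obtain ⟨⟨a, ha⟩, hfa⟩ := hfsurj ⟨mk ⟨φ, hφn⟩, by rw [hτ]; exact hφ1⟩
  have h3 : a * mk c' * a⁻¹ = mk ⟨φ, hφn⟩ := congrArg Subtype.val hfa
  obtain ⟨a, rfl⟩ := QuotientGroup.mk'_surjective (T.subgroupOf Nn) a
  have haL : (a : Γ) ∈ σ.ker := ha
  let b' : Nn := ⟨b, hbn⟩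
  -- `a⁻¹ b a` commutes with `c` modulo `T`
  have h4 : mk ⟨φ, hφn⟩ * mk b' = mk b' * mk ⟨φ, hφn⟩ := by
    rw [← map_mul, ← map_mul]
    congr 1
    exact Subtype.ext hφ3
  have h5 : mk ((a⁻¹ * b' * a) * c' * (a⁻¹ * b' * a)⁻¹ * c'⁻¹) = 1 := by
    rw [← h3] at h4
    have h6 : mk c' = (mk a)⁻¹ * ((mk a) * mk c' * (mk a)⁻¹) * mk a := by group
    rw [map_mul, map_mul, map_mul, map_inv, map_inv, map_mul, map_mul, map_inv]
    have h4' : mk a * mk c' * (mk a)⁻¹ * mk b' = mk b' * (mk a * mk c' * (mk a)⁻¹) := h4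
    calc (mk a)⁻¹ * mk b' * mk a * mk c' * ((mk a)⁻¹ * mk b' * mk a)⁻¹ * (mk c')⁻¹
        = (mk a)⁻¹ * (mk b' * (mk a * mk c' * (mk a)⁻¹)) * (mk b')⁻¹ * mk a * (mk c')⁻¹ := by group
      _ = 1 := by rw [← h4']; group
  have h6 : ((a⁻¹ * b' * a : Nn) : Γ) ∈ T := by
    refine hfix _ ?_ (a⁻¹ * b' * a).2 ((hmk _).1 h5)
    show ((a : Γ)⁻¹ * b * a) ∈ σ.ker
    exact mul_mem (mul_mem (inv_mem haL) hbL) haL
  apply hbT
  have h7 : (a : Γ)⁻¹ * b * a ∈ T := h6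
  have h8 := (mem_normalizer_iff.1 a.2 _).1 h7
  have h9 : (a : Γ) * ((a : Γ)⁻¹ * b * a) * (a : Γ)⁻¹ = b := by group
  rwa [h9] at h8

end Cfsg.Agent.H567.Ct
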