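import Cfsg.Agent.H18.Carter.SpDef
import Cfsg.Agent.GpSp.Iso

/-!
# S3852 [SP-A]: coordinates (helper567)
-/

set_option autoImplicit false

namespace Cfsg.Agent.H567.Ct

open Matrix Subgroup Cfsg.Agent.H18.Carter Cfsg

universe u

variable {F : Type} [Field F] {V : Type} [AddCommGroup V] [Module F V] [FiniteDimensional F V]
  {B : V →ₗ[F] V →ₗ[F] F}

theorem exists_coords (hB : Alt F B) : ∃ (m : ℕ) (e : (Fin m ⊕ Fin m → F) ≃ₗ[F] V),
    ∀ x y, B (e x) (e y) = sympForm m F x y := by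
  obtain ⟨m, hm⟩ := Cfsg.Agent.GpSp.Symp.even_of_nondeg B (fun v => hB.alt v) hB.nd
  obtain ⟨e, he⟩ := Cfsg.Agent.ClassicalGeometry.SympIso.exists_linearEquiv_sympForm B (fun v => hB.alt v) hB.nd hm
  exact ⟨m, e, he⟩

variable {Γ : Type u} [Group Γ] (T : Md F B Γ) {m : ℕ} (e : (Fin m ⊕ Fin m → F) ≃ₗ[F] V)

omit [FiniteDimensional F V] in
theorem exists_Lam (he : ∀ x y, B (e x) (e y) = sympForm m F x y) :
    ∃ Λ : Matrix.symplecticGroup (Fin m) F →* Γ, Function.Injective Λ ∧ Λ.range = T.L ∧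
      ∀ A v, T.ρ (Λ A) (e v) = e ((A : Matrix (Fin m ⊕ Fin m) (Fin m ⊕ Fin m) F) *ᵥ v) := by
  have h1 : ∀ A : Matrix.symplecticGroup (Fin m) F, ∃ g ∈ T.L,
      ∀ v, T.ρ g (e v) = e ((A : Matrix (Fin m ⊕ Fin m) (Fin m ⊕ Fin m) F) *ᵥ v) := by
    intro A
    have e1 : (A : Matrix (Fin m ⊕ Fin m) (Fin m ⊕ Fin m) F) * ((A⁻¹ : Matrix.symplecticGroup (Fin m) F) :
        Matrix (Fin m ⊕ Fin m) (Fin m ⊕ Fin m) F) = 1 := congrArg Subtype.val (mul_inv_cancel A)
    have e2 : ((A⁻¹ : Matrix.symplecticGroup (Fin m) F) : Matrix (Fin m ⊕ Fin m) (Fin m ⊕ Fin m) F) *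
        (A : Matrix (Fin m ⊕ Fin m) (Fin m ⊕ Fin m) F) = 1 := congrArg Subtype.val (inv_mul_cancel A)
    let x : V ≃ₗ[F] V := (e.symm ≪≫ₗ Matrix.toLin'OfInv e2 e1) ≪≫ₗ e
    have hx : ∀ v, x (e v) = e ((A : Matrix (Fin m ⊕ Fin m) (Fin m ⊕ Fin m) F) *ᵥ v) := by
      intro v
      show e (Matrix.toLin' (A : Matrix (Fin m ⊕ Fin m) (Fin m ⊕ Fin m) F) (e.symm (e v))) = _
      rw [e.symm_apply_apply, Matrix.toLin'_apply]
    obtain ⟨g, hg, hgv⟩ := T.exists_L x (by
      intro v w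
      obtain ⟨v, rfl⟩ := e.surjective v
      obtain ⟨w, rfl⟩ := e.surjective w
      rw [hx, hx, he, he]
      exact Cfsg.Agent.ClassicalGeometry.SympBasic.sympForm_mulVec A.2 v w)
    exact ⟨g, hg, fun v => by rw [hgv, hx]⟩
  choose g hg hgv using h1
  let Λ : Matrix.symplecticGroup (Fin m) F →* Γ := MonoidHom.mk' g (by
    intro A C
    apply T.ext
    intro v
    obtain ⟨v, rfl⟩ := e.surjective v
    rw [T.ρ_mul, hgv, hgv, hgv, Matrix.mulVec_mulVec]
    rfl)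
  refine ⟨Λ, ?_, ?_, hgv⟩
  · intro A C h
    apply Subtype.ext
    apply Matrix.toLin'.injective
    apply LinearMap.ext
    intro v
    rw [Matrix.toLin'_apply, Matrix.toLin'_apply]
    apply e.injective
    rw [← hgv, ← hgv]
    exact congrArg (fun z => T.ρ z (e v)) h
  · apply le_antisymm
    · rintro _ ⟨A, rfl⟩
      exact hg A
    · intro y hy
      let t : (Fin m ⊕ Fin m → F) →ₗ[F] (Fin m ⊕ Fin m → F) := (e ≪≫ₗ T.lin hy ≪≫ₗ e.symm).toLinearMap
      have ht : ∀ v, e (t v) = T.ρ y (e v) := by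
        intro v
        show e (e.symm (T.ρ y (e v))) = _
        rw [e.apply_symm_apply]
      have hA : LinearMap.toMatrix' t ∈ Matrix.symplecticGroup (Fin m) F := by
        rw [Cfsg.Agent.ClassicalGeometry.SympBasic.mem_symplecticGroup_iff]
        intro u v
        rw [LinearMap.toMatrix'_mulVec, LinearMap.toMatrix'_mulVec, ← he, ← he, ht, ht, T.form_L hy]
      refine ⟨⟨_, hA⟩, ?_⟩
      apply T.ext
      intro v
      obtain ⟨v, rfl⟩ := e.surjective v
      have h2 := hgv ⟨_, hA⟩ v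
      rw [LinearMap.toMatrix'_mulVec, ht] at h2
      exact h2

omit [FiniteDimensional F V] in
/-- the coordinatewise field automorphisms are in `Γ` -/
theorem exists_phi (he : ∀ x y, B (e x) (e y) = sympForm m F x y) (g : Γ) :
    ∃ φ : Γ, T.σ φ = T.σ g ∧ ∀ x : Fin m ⊕ Fin m → F, T.ρ φ (e x) = e (fun i => T.σ g (x i)) := by
  set τ : F ≃+* F := T.σ g with hτ
  -- the linear isometry
  let t : (Fin m ⊕ Fin m → F) → V := fun x => T.ρ g (e (fun i => τ.symm (x i)))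
  have ht1 : ∀ x y, t (x + y) = t x + t y := by
    intro x y
    have h1 : (fun i => τ.symm ((x + y) i)) = (fun i => τ.symm (x i)) + (fun i => τ.symm (y i)) := by
      funext i
      simp
    show T.ρ g (e _) = T.ρ g (e _) + T.ρ g (e _)
    rw [h1, map_add, T.add]
  have ht2 : ∀ (a : F) x, t (a • x) = a • t x := by
    intro a x
    have h1 : (fun i => τ.symm ((a • x) i)) = τ.symm a • (fun i => τ.symm (x i)) := by
      funext i
      simp
    show T.ρ g (e _) = a • T.ρ g (e _)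
    rw [h1, map_smul, T.smul, ← hτ, τ.apply_symm_apply]
  have ht3 : ∀ x y, B (t x) (t y) = sympForm m F x y := by
    intro x y
    show B (T.ρ g (e _)) (T.ρ g (e _)) = _
    rw [T.form, he, ← hτ, Cfsg.Agent.ClassicalGeometry.SympBasic.sympForm_eq_sum,
      Cfsg.Agent.ClassicalGeometry.SympBasic.sympForm_eq_sum]
    simp
  let t' : (Fin m ⊕ Fin m → F) →ₗ[F] V := { toFun := t, map_add' := ht1, map_smul' := ht2 }
  have ht' : Function.Bijective t' := by
    constructor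
    · intro x y hxy
      have h2 : T.ρ g (e (fun i => τ.symm (x i))) = T.ρ g (e (fun i => τ.symm (y i))) := hxy
      have h3 := e.injective ((T.ρ g).injective h2)
      funext i
      exact τ.symm.injective (congrFun h3 i)
    · intro v
      refine ⟨fun i => τ (e.symm (T.ρ g⁻¹ v) i), ?_⟩
      show T.ρ g (e _) = v
      have h1 : (fun i => τ.symm (τ (e.symm (T.ρ g⁻¹ v) i))) = e.symm (T.ρ g⁻¹ v) := by
        funext i
        rw [τ.symm_apply_apply]
      rw [h1, e.apply_symm_apply, T.ρ_self_inv]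
  let x : V ≃ₗ[F] V := e.symm ≪≫ₗ LinearEquiv.ofBijective t' ht'
  have hx : ∀ v, x (e v) = t v := by
    intro v
    show t (e.symm (e v)) = _
    rw [e.symm_apply_apply]
  obtain ⟨h, hh, hhv⟩ := T.exists_L x (by
    intro v w
    obtain ⟨v, rfl⟩ := e.surjective v
    obtain ⟨w, rfl⟩ := e.surjective w
    rw [hx, hx, he, ht3])
  refine ⟨h⁻¹ * g, ?_, ?_⟩
  · rw [map_mul, map_inv, T.mem_L.1 hh, inv_one, one_mul]
  · intro v
    have h1 : T.ρ g (e v) = T.ρ h (e (fun i => τ (v i))) := by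
      rw [hhv, hx]
      show _ = T.ρ g (e _)
      congr 2
      funext i
      simp
    rw [T.ρ_mul, h1, T.ρ_inv_self]

omit [FiniteDimensional F V] in
/-- `φ` commutes with matrices whose entries are fixed -/
theorem phi_comm {φ : Γ} {τ : F ≃+* F} (hφ : ∀ x : Fin m ⊕ Fin m → F, T.ρ φ (e x) = e (fun i => τ (x i)))
    {Λ : Matrix.symplecticGroup (Fin m) F →* Γ}
    (hΛ : ∀ A v, T.ρ (Λ A) (e v) = e ((A : Matrix (Fin m ⊕ Fin m) (Fin m ⊕ Fin m) F) *ᵥ v))
    {A : Matrix.symplecticGroup (Fin m) F}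
    (hA : ∀ i j, τ ((A : Matrix (Fin m ⊕ Fin m) (Fin m ⊕ Fin m) F) i j) =
      (A : Matrix (Fin m ⊕ Fin m) (Fin m ⊕ Fin m) F) i j) : φ * Λ A = Λ A * φ := by
  apply T.ext
  intro v
  obtain ⟨v, rfl⟩ := e.surjective v
  rw [T.ρ_mul, T.ρ_mul, hΛ, hφ, hφ, hΛ]
  congr 1
  funext i
  simp only [Matrix.mulVec, dotProduct, map_sum, map_mul, hA]

end Cfsg.Agent.H567.Ct
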