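import Mathlib
import Cfsg.Agent.H636.SympWreath
import Cfsg.Agent.LieClassical.SympCount

/-!
# S3852 [SP-A]: a Sylow `2`-subgroup of `Sp₂ₘ(q)`, `q = 3 ^ odd`, with entries in the prime field (helper567)
-/

set_option autoImplicit false

namespace Cfsg.Agent.H567.Ct

open Matrix Subgroup Cfsg.Agent.H636.SympWreath

private theorem dec_mul : ∀ a b c d a' b' c' d' : ZMod 3, a * d - b * c = 1 → a' * d' - b' * c' = 1 →
    (a + d = 0 ∨ (b = 0 ∧ c = 0)) → (a' + d' = 0 ∨ (b' = 0 ∧ c' = 0)) →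
    ((a * a' + b * c') + (c * b' + d * d') = 0 ∨ (a * b' + b * d' = 0 ∧ c * a' + d * c' = 0)) := by
  decide +kernel

/-- the quaternion subgroup of `SL₂(3)` -/
def Q3 : Subgroup (SpecialLinearGroup (Fin 2) (ZMod 3)) where
  carrier := {A | A 0 0 + A 1 1 = 0 ∨ (A 0 1 = 0 ∧ A 1 0 = 0)}
  one_mem' := by
    right
    constructor <;> rfl
  mul_mem' := by
    intro A B hA hB
    have hA1 := A.det_coe
    have hB1 := B.det_coe
    rw [Matrix.det_fin_two] at hA1 hB1
    have h : ∀ (i k : Fin 2), ((A * B : SpecialLinearGroup (Fin 2) (ZMod 3)) : Matrix (Fin 2) (Fin 2) (ZMod 3)) i k =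
        (A : Matrix (Fin 2) (Fin 2) (ZMod 3)) i 0 * (B : Matrix (Fin 2) (Fin 2) (ZMod 3)) 0 k +
        (A : Matrix (Fin 2) (Fin 2) (ZMod 3)) i 1 * (B : Matrix (Fin 2) (Fin 2) (ZMod 3)) 1 k := by
      intro i k
      change ((A : Matrix (Fin 2) (Fin 2) (ZMod 3)) * (B : Matrix (Fin 2) (Fin 2) (ZMod 3))) i k = _
      rw [Matrix.mul_apply, Fin.sum_univ_two]
    show (A * B) 0 0 + (A * B) 1 1 = 0 ∨ ((A * B) 0 1 = 0 ∧ (A * B) 1 0 = 0)
    rw [h, h, h, h]
    exact dec_mul _ _ _ _ _ _ _ _ hA1 hB1 hA hB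
  inv_mem' := by
    intro A hA
    have h1 : ∀ (i k : Fin 2), ((A⁻¹ : SpecialLinearGroup (Fin 2) (ZMod 3)) : Matrix (Fin 2) (Fin 2) (ZMod 3)) i k =
        !![(A : Matrix (Fin 2) (Fin 2) (ZMod 3)) 1 1, -(A : Matrix (Fin 2) (Fin 2) (ZMod 3)) 0 1;
          -(A : Matrix (Fin 2) (Fin 2) (ZMod 3)) 1 0, (A : Matrix (Fin 2) (Fin 2) (ZMod 3)) 0 0] i k := by
      intro i k
      rw [Matrix.SpecialLinearGroup.SL2_inv_expl]
      rfl
    show (A⁻¹) 0 0 + (A⁻¹) 1 1 = 0 ∨ ((A⁻¹) 0 1 = 0 ∧ (A⁻¹) 1 0 = 0)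
    rw [h1, h1, h1, h1]
    rcases hA with hA | ⟨hA, hB⟩
    · left
      simpa [add_comm] using hA
    · right
      simpa using ⟨hA, hB⟩

theorem mem_Q3 {A : SpecialLinearGroup (Fin 2) (ZMod 3)} : A ∈ Q3 ↔ (A 0 0 + A 1 1 = 0 ∨ (A 0 1 = 0 ∧ A 1 0 = 0)) :=
  Iff.rfl

instance decMemQ3 : DecidablePred (· ∈ Q3) := fun A =>
  inferInstanceAs (Decidable (A 0 0 + A 1 1 = 0 ∨ (A 0 1 = 0 ∧ A 1 0 = 0)))

theorem card_Q3 : Nat.card Q3 = 8 := by
  rw [Nat.card_eq_fintype_card]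
  decide +kernel

/-- the transvection -/
def u3 : SpecialLinearGroup (Fin 2) (ZMod 3) := ⟨!![1, 1; 0, 1], by rw [Matrix.det_fin_two]; decide⟩

theorem u3_not_mem : u3 ∉ Q3 := by decide +kernel

theorem u3_conj : ∀ A ∈ Q3, u3 * A * u3⁻¹ ∈ Q3 := by
  decide +kernel

section

variable {F : Type} [Field F] [Fintype F]

theorem charP_three {f : ℕ} (hF : Fintype.card F = 3 ^ (2 * f + 1)) : CharP F 3 :=
  haveI : Fact (Nat.Prime 3) := ⟨Nat.prime_three⟩
  charP_of_card_eq_prime_pow hF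

theorem val_sq {f : ℕ} (hF : Fintype.card F = 3 ^ (2 * f + 1)) : padicValNat 2 (Fintype.card F ^ 2 - 1) = 3 := by
  have h1 := padicValNat.pow_two_sub_one (x := 3) (n := 2 * (2 * f + 1)) (by norm_num) (by norm_num) (by omega) (by simp)
  rw [hF, ← pow_mul, mul_comm (2 * f + 1) 2]
  have h2 : padicValNat 2 (3 + 1) = 2 := by
    rw [show (3 + 1 : ℕ) = 2 ^ 2 by norm_num, padicValNat.prime_pow]
  have h3 : padicValNat 2 (3 - 1) = 1 := by
    rw [show (3 - 1 : ℕ) = 2 by norm_num, padicValNat_self]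
  have h4 : padicValNat 2 (2 * (2 * f + 1)) = 1 := by
    rw [padicValNat.mul (by norm_num) (by omega), padicValNat_self, padicValNat.eq_zero_of_not_dvd (by omega)]
  omega

theorem val_pow (q m : ℕ) (hq : Odd q) (hq1 : 1 < q) (hm : m ≠ 0) :
    padicValNat 2 (q ^ (2 * m) - 1) = padicValNat 2 (q ^ 2 - 1) + padicValNat 2 m := by
  have hq2 : ¬ 2 ∣ q := by
    intro h
    exact (Nat.not_even_iff_odd.2 hq) (even_iff_two_dvd.2 h)
  have h1 := padicValNat.pow_two_sub_one hq1 hq2 (n := 2 * m) (by omega) (by simp)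
  have h2 := padicValNat.pow_two_sub_one hq1 hq2 (n := 2) (by omega) (by simp)
  rw [padicValNat.mul (by norm_num) hm] at h1
  have h3 : padicValNat 2 2 = 1 := padicValNat_self
  omega

theorem card_wr_sylow (hF : Odd (Fintype.card F)) (n : ℕ) (Q : Subgroup (SpecialLinearGroup (Fin 2) F))
    (hQc : Nat.card Q = 2 ^ (padicValNat 2 (Fintype.card F ^ 2 - 1))) (H : Sylow 2 (Equiv.Perm (Fin n))) :
    Nat.card (wr Q (H : Subgroup (Equiv.Perm (Fin n)))) =
      2 ^ (Nat.card (Matrix.symplecticGroup (Fin n) F)).factorization 2 := by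
  have hq1 : 1 < Fintype.card F := Fintype.one_lt_card
  have hq0 : Fintype.card F ≠ 0 := by omega
  have hq2 : ¬ 2 ∣ Fintype.card F := by
    intro h
    exact (Nat.not_even_iff_odd.2 hF) (even_iff_two_dvd.2 h)
  have hpw : ∀ m : ℕ, m ≠ 0 → Fintype.card F ^ m - 1 ≠ 0 := by
    intro m hm
    have := Nat.one_lt_pow hm hq1
    omega
  have hval0 : ∀ m : ℕ, padicValNat 2 (Fintype.card F ^ m) = 0 := by
    intro m
    rw [padicValNat.eq_zero_iff]
    right; right
    intro h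
    exact hq2 (Nat.Prime.dvd_of_dvd_pow Nat.prime_two h)
  have hHc : Nat.card H = 2 ^ (padicValNat 2 n.factorial) := by
    rw [H.card_eq_multiplicity, Nat.card_eq_fintype_card, Fintype.card_perm, Fintype.card_fin,
      Nat.factorization_def _ Nat.prime_two]
  rw [Cfsg.Agent.H636.SympWreath.card_wr, hQc, hHc, ← pow_mul, ← pow_add,
    Cfsg.Agent.LieClassical.SympCount.card_symplecticGroup, Nat.factorization_def _ Nat.prime_two]
  congr 1
  rw [padicValNat.mul (pow_ne_zero _ hq0) (Finset.prod_ne_zero_iff.2 fun i _ => hpw _ (by omega)),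
    hval0, zero_add]
  clear hHc H
  induction n with
  | zero => simp
  | succ n ih =>
    rw [Finset.prod_range_succ, padicValNat.mul
      (Finset.prod_ne_zero_iff.2 fun i _ => hpw _ (by omega)) (hpw _ (by omega)), ← ih,
      val_pow _ _ hF hq1 (by omega), Nat.factorial_succ, padicValNat.mul (by omega)
      (Nat.factorial_ne_zero n)]
    ring

/-- a Sylow `2`-subgroup with entries in the prime field, and an element of its normalizer with entries in the prime field -/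
theorem exists_data {f : ℕ} (hF : Fintype.card F = 3 ^ (2 * f + 1)) (m : ℕ) (hm : 1 ≤ m) :
    ∃ (W : Subgroup (Matrix.symplecticGroup (Fin m) F)) (b : Matrix.symplecticGroup (Fin m) F),
      Nat.card W = 2 ^ (Nat.card (Matrix.symplecticGroup (Fin m) F)).factorization 2 ∧ b ∉ W ∧
      b ∈ normalizer (W : Set (Matrix.symplecticGroup (Fin m) F)) ∧
      ∀ τ : F ≃+* F, (∀ x ∈ W, ∀ i j, τ ((x : Matrix (Fin m ⊕ Fin m) (Fin m ⊕ Fin m) F) i j) =
        (x : Matrix (Fin m ⊕ Fin m) (Fin m ⊕ Fin m) F) i j) ∧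
        (∀ i j, τ ((b : Matrix (Fin m ⊕ Fin m) (Fin m ⊕ Fin m) F) i j) =
        (b : Matrix (Fin m ⊕ Fin m) (Fin m ⊕ Fin m) F) i j) := by
  classical
  haveI := charP_three hF
  have hodd : Odd (Fintype.card F) := by
    rw [hF]
    exact Odd.pow (by decide)
  let c : ZMod 3 →+* F := ZMod.castHom (dvd_refl 3) F
  have hc : Function.Injective c := by
    haveI : Fact (Nat.Prime 3) := ⟨Nat.prime_three⟩
    exact c.injective
  let κ : SpecialLinearGroup (Fin 2) (ZMod 3) →* SpecialLinearGroup (Fin 2) F := SpecialLinearGroup.map c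
  have hκv : ∀ (A : SpecialLinearGroup (Fin 2) (ZMod 3)) (i j : Fin 2),
      (κ A : Matrix (Fin 2) (Fin 2) F) i j = c ((A : Matrix (Fin 2) (Fin 2) (ZMod 3)) i j) := fun A i j => rfl
  have hκ : Function.Injective κ := by
    intro A B h
    ext i j
    apply hc
    rw [← hκv, ← hκv, h]
  obtain ⟨H⟩ : Nonempty (Sylow 2 (Equiv.Perm (Fin m))) := inferInstance
  have hQc : Nat.card (Q3.map κ) = 2 ^ (padicValNat 2 (Fintype.card F ^ 2 - 1)) := by
    rw [val_sq hF, Subgroup.card_map_of_injective hκ, card_Q3]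
    norm_num
  have hfix : ∀ (τ : F ≃+* F) (z : ZMod 3), τ (c z) = c z := by
    intro τ z
    obtain ⟨n, rfl⟩ := ZMod.intCast_surjective z
    simp
  have hmono : ∀ (τ : F ≃+* F) (s : Equiv.Perm (Fin m)) (a : Fin m → F), (∀ j, τ (a j) = a j) →
      ∀ i j, τ (mono s a i j) = mono s a i j := by
    intro τ s a ha i j
    rw [mono_apply]
    split_ifs
    · exact ha j
    · exact map_zero τ
  have hblk : ∀ (τ : F ≃+* F) (s : Equiv.Perm (Fin m)) (A : Fin m → SpecialLinearGroup (Fin 2) F),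
      (∀ j i k, τ ((A j : Matrix (Fin 2) (Fin 2) F) i k) = (A j : Matrix (Fin 2) (Fin 2) F) i k) →
      ∀ i j, τ ((blk s A : Matrix (Fin m ⊕ Fin m) (Fin m ⊕ Fin m) F) i j) =
        (blk s A : Matrix (Fin m ⊕ Fin m) (Fin m ⊕ Fin m) F) i j := by
    intro τ s A hA i j
    rcases i with i | i <;> rcases j with j | j
    · exact hmono τ s _ (fun j => hA j _ _) i j
    · exact hmono τ s _ (fun j => hA j _ _) i j
    · exact hmono τ s _ (fun j => hA j _ _) i j
    · exact hmono τ s _ (fun j => hA j _ _) i j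
  refine ⟨wr (Q3.map κ) H, blk 1 (fun _ => κ u3), card_wr_sylow hodd m _ hQc H, ?_, ?_, ?_⟩
  · rintro ⟨s, hs, A, hA, e⟩
    obtain ⟨-, h2⟩ := blk_injective e
    have h3 := hA ⟨0, hm⟩
    rw [← h2] at h3
    obtain ⟨x, hx, h4⟩ := h3
    rw [hκ h4] at hx
    exact u3_not_mem hx
  · apply Subgroup.mem_normalizer_fintype
    rintro _ ⟨s, hs, A, hA, rfl⟩
    have hinv : (blk 1 (fun _ : Fin m => κ u3))⁻¹ = blk 1 (fun _ : Fin m => (κ u3)⁻¹) := by
      rw [inv_eq_iff_mul_eq_one, blk_mul, ← blk_one]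
      congr 1
      funext j
      simp
    rw [hinv, blk_mul, blk_mul, one_mul, mul_one]
    refine ⟨s, hs, _, fun j => ?_, rfl⟩
    obtain ⟨x, hx, h4⟩ := hA j
    refine ⟨u3 * x * u3⁻¹, u3_conj x hx, ?_⟩
    simp [← h4]
  · intro τ
    constructor
    · rintro _ ⟨s, hs, A, hA, rfl⟩
      apply hblk
      intro j i k
      obtain ⟨x, hx, h4⟩ := hA j
      rw [← h4, hκv]
      exact hfix τ _
    · apply hblk
      intro j i k
      rw [hκv]
      exact hfix τ _

end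

end Cfsg.Agent.H567.Ct
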