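import Cfsg.Agent.H381.Car.LemX
import Cfsg.Agent.H567.Ct.Core
import Cfsg.Agent.H567.Ct.Syl
import Cfsg.Agent.H567.Ct.Geo
import Cfsg.Agent.H206.FieldKill

/-!
# S3852 [SP-A]: `stepA` (helper567)

`Γ ≥ Sp(V)`, `q = 3 ^ odd`: no Carter subgroup `K` with `K L = Γ` meets `L = Sp(V)` in a `2`-group.
-/

set_option autoImplicit false
set_option linter.style.haveILetI false

namespace Cfsg.Agent.H567.Ct

open Subgroup Pointwise Cfsg.Agent.H18.Carter Cfsg Cfsg.Agent.Solvable.Carter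

universe u

/-- two subgroups of order the `p`-part are conjugate -/
theorem exists_conj {G : Type*} [Group G] [Finite G] {p : ℕ} [Fact p.Prime] {L P Q : Subgroup G} (hPL : P ≤ L)
    (hQL : Q ≤ L) (hP : IsPGroup p P) (hQ : IsPGroup p Q) (hP' : ¬ p ∣ P.relIndex L) (hQ' : ¬ p ∣ Q.relIndex L) :
    ∃ x ∈ L, MulAut.conj x • P = Q := by
  have h1 : IsPGroup p (P.subgroupOf L) := hP.comap_of_injective L.subtype L.subtype_injective
  have h2 : IsPGroup p (Q.subgroupOf L) := hQ.comap_of_injective L.subtype L.subtype_injective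
  let S : Sylow p L := h1.toSylow hP'
  let R : Sylow p L := h2.toSylow hQ'
  obtain ⟨x, hx⟩ := MulAction.exists_smul_eq L S R
  refine ⟨x, x.2, ?_⟩
  have hx' : MulAut.conj x • (P.subgroupOf L) = Q.subgroupOf L := by
    have h3 := congrArg (fun Z : Sylow p L => (Z : Subgroup L)) hx
    exact h3
  ext y
  constructor
  · intro hy
    rw [mem_cj] at hy
    have hyL : y ∈ L := by
      have h4 := L.mul_mem (L.mul_mem x.2 (hPL hy)) (L.inv_mem x.2)
      have h5 : (x : G) * ((x : G)⁻¹ * y * x) * (x : G)⁻¹ = y := by group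
      rwa [h5] at h4
    have h3 : (⟨y, hyL⟩ : L) ∈ MulAut.conj x • (P.subgroupOf L) := by
      rw [mem_cj]
      exact hy
    rw [hx'] at h3
    exact h3
  · intro hy
    have h3 : (⟨y, hQL hy⟩ : L) ∈ MulAut.conj x • (P.subgroupOf L) := by
      rw [hx']
      exact hy
    rw [mem_cj] at h3 ⊢
    exact h3

theorem stepA {F : Type} [Field F] [Fintype F] {V : Type} [AddCommGroup V] [Module F V] [FiniteDimensional F V]
    [Nontrivial V] {B : V →ₗ[F] V →ₗ[F] F} (hB : Alt F B) {Γ : Type u} [Group Γ] [Finite Γ] (T : Md F B Γ)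
    (hFp : Cfsg.Agent.H381.Car.Fpf.{u}) (sm : Sm2 Γ) {f : ℕ} (hF : Fintype.card F = 3 ^ (2 * f + 1))
    {K : Subgroup Γ} (hK : IsCarter K) (hKL : K ⊔ T.L = ⊤) (h2 : IsPGroup 2 ↥(K ⊓ T.L)) : False := by
  classical
  haveI : Fact (Nat.Prime 2) := ⟨Nat.prime_two⟩
  haveI := charP_three hF
  have h2F : (2 : F) ≠ 0 := by
    intro h
    have h3 : ((2 : ℕ) : F) = 0 := by exact_mod_cast h
    rw [CharP.cast_eq_zero_iff F 3] at h3
    omega
  have he := T.eps_comm
  have he2 := T.orderOf_eps h2F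
  -- coordinates
  obtain ⟨m, e, hem⟩ := exists_coords hB
  have hm : 1 ≤ m := by
    by_contra hm
    have hm0 : m = 0 := by omega
    subst hm0
    have h3 : Subsingleton V := e.symm.injective.subsingleton
    exact not_subsingleton V h3
  obtain ⟨Λ, hΛi, hΛr, hΛ⟩ := exists_Lam T e hem
  obtain ⟨W, b, hW, hbW, hbn, hfix⟩ := exists_data hF m hm
  haveI : Finite F := inferInstance
  haveI : Finite (Matrix.symplecticGroup (Fin m) F) := inferInstance
  -- the subgroup `T₀`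
  let S : Sylow 2 (Matrix.symplecticGroup (Fin m) F) := Sylow.ofCard W hW
  have hSW : (S : Subgroup (Matrix.symplecticGroup (Fin m) F)) = W := rfl
  have hT0L : W.map Λ ≤ T.L := by
    rw [← hΛr]
    exact map_le_range Λ W
  have hT02 : IsPGroup 2 (W.map Λ) := by
    have h3 : IsPGroup 2 W := S.2
    exact h3.map Λ
  have hT0i : ¬ 2 ∣ (W.map Λ).relIndex T.L := by
    rw [← hΛr, MonoidHom.range_eq_map, relIndex_map_map_of_injective _ _ hΛi, relIndex_top_right]
    exact S.not_dvd_index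
  -- Lemma X in the quotient
  let Z : Subgroup Γ := zpowers T.eps
  have hZc : Z ≤ center Γ := by
    rw [zpowers_le]
    exact mem_center_iff.2 he
  haveI hZn : Z.Normal := ⟨fun n hn g => by
    rw [(mem_center_iff.1 (hZc hn)) g, mul_inv_cancel_right]
    exact hn⟩
  have hZ2 : Nat.card Z = 2 := by rw [Nat.card_zpowers, he2]
  have hcardZ : Nat.card Γ = Nat.card (Γ ⧸ Z) * 2 := by
    rw [Subgroup.card_eq_card_quotient_mul_card_subgroup Z, hZ2]
  have hZK : Z ≤ K := hZc.trans (IsCarter.center_le hK)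
  have hZL : Z ≤ T.L := by
    rw [zpowers_le]
    exact T.eps_mem
  let π : Γ →* Γ ⧸ Z := QuotientGroup.mk' Z
  have hπs : Function.Surjective π := QuotientGroup.mk'_surjective Z
  have hπk : π.ker = Z := QuotientGroup.ker_mk' Z
  haveI hLn : (T.L.map π).Normal := Subgroup.Normal.map inferInstance π hπs
  have hKN : IsPGroup 2 (K.map π ⊓ T.L.map π : Subgroup (Γ ⧸ Z)) := by
    have h3 : K.map π ⊓ T.L.map π ≤ (K ⊓ T.L).map π := by
      rintro x ⟨⟨k, hk, rfl⟩, ⟨l, hl, hkl⟩⟩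
      have h4 : k⁻¹ * l ∈ Z := by
        rw [← hπk]
        show π (k⁻¹ * l) = 1
        rw [map_mul, map_inv, hkl, inv_mul_cancel]
      refine ⟨k, ⟨hk, ?_⟩, rfl⟩
      have h5 := T.L.mul_mem hl (T.L.inv_mem (hZL h4))
      have h6 : l * (k⁻¹ * l)⁻¹ = k := by group
      rwa [h6] at h5
    exact (h2.map π).to_le h3
  obtain ⟨P, hPN, hP2, hPi, hPK⟩ := Cfsg.Agent.H381.Car.lemma_x hFp (G := Γ ⧸ Z) (by
    intro Y _ _ hY
    exact sm Y (by omega)) (T.L.map π) (IsCarter.map_central hZc hK) (l := 2) hKN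
  -- the pull back
  have hT2L : P.comap π ≤ T.L := by
    intro x hx
    obtain ⟨l, hl, hlx⟩ := hPN hx
    have h4 : l⁻¹ * x ∈ Z := by
      rw [← hπk]
      show π (l⁻¹ * x) = 1
      rw [map_mul, map_inv, hlx, inv_mul_cancel]
    have h5 := T.L.mul_mem hl (hZL h4)
    rwa [mul_inv_cancel_left] at h5
  have hT22 : IsPGroup 2 (P.comap π) := by
    apply hP2.comap_of_ker_isPGroup
    rw [hπk]
    exact IsPGroup.of_card (n := 1) (by rw [hZ2, pow_one])
  have hT2i : ¬ 2 ∣ (P.comap π).relIndex T.L := by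
    rw [relIndex_comap]
    exact hPi
  have hT2K : K ≤ normalizer ((P.comap π : Subgroup Γ) : Set Γ) := by
    intro k hk
    exact le_normalizer_comap π (hPK ⟨k, hk, rfl⟩)
  -- conjugation
  obtain ⟨x, hxL, hx⟩ := exists_conj hT2L hT0L hT22 hT02 hT2i hT0i
  have hK' : IsCarter (MulAut.conj x • K) := hK.conj x
  have hK'n : MulAut.conj x • K ≤ normalizer ((W.map Λ : Subgroup Γ) : Set Γ) := by
    rw [← hx]
    intro y hy
    rw [mem_cj] at hy
    have h3 := mem_normalizer_iff.1 (hT2K hy)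
    rw [mem_normalizer_iff]
    intro z
    rw [mem_cj, mem_cj, h3]
    have h4 : x⁻¹ * y * x * (x⁻¹ * z * x) * (x⁻¹ * y * x)⁻¹ = x⁻¹ * (y * z * y⁻¹) * x := by group
    rw [h4]
  have hLx : ∀ y, y ∈ T.L ↔ x⁻¹ * y * x ∈ T.L := by
    intro y
    have h3 : T.L.Normal := inferInstance
    constructor
    · intro hy
      have h4 := h3.conj_mem y hy x⁻¹
      rwa [inv_inv] at h4
    · intro hy
      have h4 := h3.conj_mem _ hy x
      have h5 : x * (x⁻¹ * y * x) * x⁻¹ = y := by group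
      rwa [h5] at h4
  have hK'L : (MulAut.conj x • K) ⊔ T.L = ⊤ := by
    rw [eq_top_iff]
    intro y _
    have h3 : x⁻¹ * y * x ∈ K ⊔ T.L := by rw [hKL]; trivial
    obtain ⟨k, hk, l, hl, hkl⟩ := Subgroup.mem_sup_of_normal_right.1 h3
    have h4 : y = (x * k * x⁻¹) * (x * l * x⁻¹) := by
      have h5 : (x * k * x⁻¹) * (x * l * x⁻¹) = x * (k * l) * x⁻¹ := by group
      rw [h5, hkl]
      group
    rw [h4]
    refine mul_mem (mem_sup_left (cj_mem hk)) (mem_sup_right ?_)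
    rw [hLx]
    have h5 : x⁻¹ * (x * l * x⁻¹) * x = l := by group
    rwa [h5]
  have hK'2 : IsPGroup 2 ((MulAut.conj x • K) ⊓ T.L : Subgroup Γ) := by
    have h3 : (MulAut.conj x • K) ⊓ T.L = (K ⊓ T.L).map (MulAut.conj x).toMonoidHom := by
      ext y
      constructor
      · rintro ⟨hy1, hy2⟩
        refine ⟨x⁻¹ * y * x, ⟨mem_cj.1 hy1, (hLx y).1 hy2⟩, ?_⟩
        show x * (x⁻¹ * y * x) * x⁻¹ = y
        group
      · rintro ⟨z, ⟨hz1, hz2⟩, rfl⟩
        refine ⟨cj_mem hz1, ?_⟩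
        show x * z * x⁻¹ ∈ T.L
        rw [hLx]
        have h5 : x⁻¹ * (x * z * x⁻¹) * x = z := by group
        rwa [h5]
    rw [h3]
    exact h2.map _
  haveI : IsCyclic (F ≃+* F) := Cfsg.Agent.H206.FieldKill.isCyclic_aut F
  refine core T.σ (W.map Λ) (MulAut.conj x • K) hT0L hT02 hT0i hK'n hK'L hK'2
    (fun M hM hMt => sm.norm he he2 hK' hM hMt) (Λ b) ?_ ?_ ?_ ?_
  · have h3 : Λ b ∈ Λ.range := ⟨b, rfl⟩
    rw [hΛr] at h3
    exact h3
  · rintro ⟨w, hw, hwb⟩
    rw [hΛi hwb] at hw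
    exact hbW hw
  · exact le_normalizer_map Λ ⟨b, hbn, rfl⟩
  · intro c
    obtain ⟨φ, hφσ, hφ⟩ := exists_phi T e hem c
    refine ⟨φ, hφσ, ?_, ?_⟩
    · rintro _ ⟨w, hw, rfl⟩
      exact phi_comm T e hφ hΛ ((hfix (T.σ c)).1 w hw)
    · exact phi_comm T e hφ hΛ (hfix (T.σ c)).2

end Cfsg.Agent.H567.Ct
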